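import Cfsg.Agent.Lib.ZStar.Elts
import Cfsg.Agent.Lib.FGS.Syl

/-! # Cyclic characteristic subgroups under a central-intersection hypothesis -/

set_option autoImplicit false
set_option linter.unusedSectionVars false
set_option linter.unusedVariables false
set_option linter.style.haveILetI false

namespace CfsgLib.ZS

open Cfsg CfsgLib.Char

universe u

section CI

variable {G : Type u} [Group G] [Finite G]

theorem mem_smul_sylow {P : Sylow 2 G} {c t : G} :
    t ∈ ((c • P : Sylow 2 G) : Subgroup G) ↔ ∃ s ∈ (P : Subgroup G), c * s * c⁻¹ = t := by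
  rw [Sylow.coe_subgroup_smul]
  constructor
  · rintro ⟨s, hs, hse⟩
    exact ⟨s, hs, hse⟩
  · rintro ⟨s, hs, hse⟩
    exact ⟨s, hs, hse⟩

/-- 2-subgroups of an overgroup of a Sylow subgroup lie in a conjugate of it under the overgroup. -/
theorem exists_conj_in {U : Sylow 2 G} {W P : Subgroup G} (hUW : (U : Subgroup G) ≤ W) (hPW : P ≤ W)
    (hP : IsPGroup 2 P) : ∃ w ∈ W, P ≤ ((w • U : Sylow 2 G) : Subgroup G) := by
  classical
  haveI : Fact (Nat.Prime 2) := ⟨Nat.prime_two⟩
  have hP' : IsPGroup 2 (P.subgroupOf W) := hP.comap_subtype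
  obtain ⟨Q, hQ⟩ := hP'.exists_le_sylow
  obtain ⟨w, hw⟩ := MulAction.exists_smul_eq W (U.subtype hUW) Q
  refine ⟨w, w.2, ?_⟩
  intro t ht
  have h1 : (⟨t, hPW ht⟩ : W) ∈ (Q : Subgroup W) := hQ ht
  rw [← hw, Sylow.coe_subgroup_smul] at h1
  obtain ⟨s, hs, hse⟩ := h1
  have h2 : (w : G) * (s : G) * (w : G)⁻¹ = t := congrArg Subtype.val hse
  exact mem_smul_sylow.2 ⟨s, hs, h2⟩

theorem sylow_eq_of_le {A B : Sylow 2 G} (h : (A : Subgroup G) ≤ B) : A = B := by
  haveI : Fact (Nat.Prime 2) := ⟨Nat.prime_two⟩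
  apply Sylow.ext
  apply Subgroup.eq_of_le_of_card_ge h
  rw [Sylow.card_eq_multiplicity, Sylow.card_eq_multiplicity]

theorem ci_step (hCI : ∀ S T : Sylow 2 G, S ≠ T → ∃ U : Sylow 2 G,
      (S : Subgroup G) ⊓ (T : Subgroup G) ≤ (Subgroup.center ↥(U : Subgroup G)).map (U : Subgroup G).subtype)
    (S : Sylow 2 G) {c : G} (hcS : c ∈ (S : Subgroup G))
    (hfix : ∀ h : G, h ∈ Subgroup.normalizer ((S : Subgroup G) : Set G) → h * c * h⁻¹ = c) :
    ∀ (m : ℕ) (a b : G), Nat.card (S : Subgroup G) -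
        Nat.card (((a • S : Sylow 2 G) : Subgroup G) ⊓ ((b • S : Sylow 2 G) : Subgroup G) : Subgroup G) = m →
      b * c * b⁻¹ ∈ ((a • S : Sylow 2 G) : Subgroup G) → b * c * b⁻¹ = a * c * a⁻¹ := by
  classical
  haveI : Fact (Nat.Prime 2) := ⟨Nat.prime_two⟩
  intro m
  induction m using Nat.strong_induction_on with
  | _ m ih =>
    intro a b hm hd
    by_cases hAB : a • S = b • S
    · have h1 : (a⁻¹ * b) • S = S := by
        rw [mul_smul, ← hAB, inv_smul_smul]
      have h2 : a⁻¹ * b ∈ Subgroup.normalizer ((S : Subgroup G) : Set G) :=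
        Sylow.smul_eq_iff_mem_normalizer.1 h1
      have h3 := hfix _ h2
      calc b * c * b⁻¹ = a * ((a⁻¹ * b) * c * (a⁻¹ * b)⁻¹) * a⁻¹ := by group
        _ = a * c * a⁻¹ := by rw [h3]
    · set A : Sylow 2 G := a • S with hA
      set B : Sylow 2 G := b • S with hB
      set d : G := b * c * b⁻¹ with hdd
      have hdB : d ∈ (B : Subgroup G) := mem_smul_sylow.2 ⟨c, hcS, rfl⟩
      set D : Subgroup G := (A : Subgroup G) ⊓ (B : Subgroup G) with hD
      have hdD : d ∈ D := ⟨hd, hdB⟩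
      have hDA : D < (A : Subgroup G) := by
        refine lt_of_le_of_ne inf_le_left fun h => hAB ?_
        exact sylow_eq_of_le (by
          rw [← h]
          exact inf_le_right)
      have hDB : D < (B : Subgroup G) := by
        refine lt_of_le_of_ne inf_le_right fun h => hAB ?_
        refine (sylow_eq_of_le (by
          rw [← h]
          exact inf_le_left)).symm
      obtain ⟨U, hU⟩ := hCI A B hAB
      have hDU : ∀ δ ∈ D, ∀ t ∈ (U : Subgroup G), t * δ = δ * t := by
        intro δ hδ t ht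
        obtain ⟨z, hz, rfl⟩ := hU hδ
        exact congrArg Subtype.val (Subgroup.mem_center_iff.1 hz ⟨t, ht⟩)
      set W := Subgroup.centralizer (D : Set G) with hW
      set Y := Subgroup.normalizer (D : Set G) with hY
      have hUW : (U : Subgroup G) ≤ W := by
        intro t ht
        rw [hW, Subgroup.mem_centralizer_iff]
        intro δ hδ
        exact (hDU δ hδ t ht).symm
      have hWY : W ≤ Y := Subgroup.centralizer_le_normalizer _
      have hDY : D ≤ Y := Subgroup.le_normalizer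
      have hPW : ∀ P : Subgroup G, IsPGroup 2 P → P ≤ Y → P ≤ W := by
        intro P hP hPY t ht
        obtain ⟨y, hy, hPy⟩ := exists_conj_in (hUW.trans hWY) hPY hP
        obtain ⟨s, hs, hse⟩ := mem_smul_sylow.1 (hPy ht)
        rw [hW, Subgroup.mem_centralizer_iff]
        intro δ hδ
        have h1 : y⁻¹ * δ * y ∈ D := by
          have h2 := (Subgroup.mem_normalizer_iff.1 (Y.inv_mem hy) δ).1 hδ
          rwa [inv_inv] at h2
        have h2 := hDU _ h1 s hs
        rw [← hse]
        calc δ * (y * s * y⁻¹) = y * ((y⁻¹ * δ * y) * s) * y⁻¹ := by group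
          _ = y * (s * (y⁻¹ * δ * y)) * y⁻¹ := by rw [h2]
          _ = y * s * y⁻¹ * δ := by group
      -- the two normalizers
      set X : Subgroup G := (A : Subgroup G) ⊓ Y with hX
      set X' : Subgroup G := (B : Subgroup G) ⊓ Y with hX'
      have hXp : IsPGroup 2 X := A.isPGroup'.to_le inf_le_left
      have hX'p : IsPGroup 2 X' := B.isPGroup'.to_le inf_le_left
      have hXW : X ≤ W := hPW X hXp inf_le_right
      have hX'W : X' ≤ W := hPW X' hX'p inf_le_right
      have hDX : D < X := by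
        obtain ⟨x, hxA, hxD, hxN⟩ := CfsgLib.FGS.exists_mem_normalizer_of_lt A.isPGroup' hDA
        refine lt_of_le_of_ne (le_inf hDA.le hDY) fun h => hxD ?_
        rw [h]
        exact ⟨hxA, hxN⟩
      have hDX' : D < X' := by
        obtain ⟨x, hxA, hxD, hxN⟩ := CfsgLib.FGS.exists_mem_normalizer_of_lt B.isPGroup' hDB
        refine lt_of_le_of_ne (le_inf hDB.le hDY) fun h => hxD ?_
        rw [h]
        exact ⟨hxA, hxN⟩
      obtain ⟨w₁, hw₁, hXw₁⟩ := exists_conj_in hUW hXW hXp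
      obtain ⟨w₂, hw₂, hXw₂⟩ := exists_conj_in hUW hX'W hX'p
      obtain ⟨v, hv⟩ := MulAction.exists_smul_eq G S U
      have hcardle : ∀ (A₁ B₁ : Sylow 2 G), Nat.card ((A₁ : Subgroup G) ⊓ (B₁ : Subgroup G) : Subgroup G) ≤ Nat.card (S : Subgroup G) := by
        intro A₁ B₁
        have h1 : Nat.card (A₁ : Subgroup G) = Nat.card (S : Subgroup G) := by
          rw [Sylow.card_eq_multiplicity, Sylow.card_eq_multiplicity]
        rw [← h1]
        exact Subgroup.card_le_of_le inf_le_left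
      have hmeas : ∀ (A₁ B₁ : Sylow 2 G) (Z : Subgroup G), D < Z → Z ≤ (A₁ : Subgroup G) ⊓ (B₁ : Subgroup G) →
          Nat.card (S : Subgroup G) - Nat.card ((A₁ : Subgroup G) ⊓ (B₁ : Subgroup G) : Subgroup G) < m := by
        intro A₁ B₁ Z hZ hZle
        have h1 : Nat.card D < Nat.card Z := by
          refine lt_of_not_ge fun h => ?_
          exact hZ.ne (Subgroup.eq_of_le_of_card_ge hZ.le h)
        have h2 : Nat.card Z ≤ Nat.card ((A₁ : Subgroup G) ⊓ (B₁ : Subgroup G) : Subgroup G) := Subgroup.card_le_of_le hZle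
        have h3 := hcardle A₁ B₁
        rw [← hm]
        omega
      -- first use of induction
      have hB₁ : ((w₂ * v) • S : Sylow 2 G) = w₂ • U := by rw [mul_smul, hv]
      have hA₁ : ((w₁ * v) • S : Sylow 2 G) = w₁ • U := by rw [mul_smul, hv]
      have e1 : d = (w₂ * v) * c * (w₂ * v)⁻¹ := by
        refine ih _ (hmeas ((w₂ * v) • S) B X' hDX' (le_inf ?_ inf_le_left)) (w₂ * v) b rfl ?_
        · rw [hB₁]
          exact hXw₂
        · rw [hB₁]
          exact hXw₂ (hDX'.le hdD)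
      have hdcom : ∀ w ∈ W, w * d * w⁻¹ = d := by
        intro w hw
        have h1 := (Subgroup.mem_centralizer_iff.1 hw) d hdD
        rw [← h1, mul_inv_cancel_right]
      have hvd : v * c * v⁻¹ = d := by
        have h1 := hdcom w₂⁻¹ (W.inv_mem hw₂)
        calc v * c * v⁻¹ = w₂⁻¹ * ((w₂ * v) * c * (w₂ * v)⁻¹) * w₂⁻¹⁻¹ := by group
          _ = w₂⁻¹ * d * w₂⁻¹⁻¹ := by rw [← e1]
          _ = d := h1
      have e2 : (w₁ * v) * c * (w₁ * v)⁻¹ = d := by
        calc (w₁ * v) * c * (w₁ * v)⁻¹ = w₁ * (v * c * v⁻¹) * w₁⁻¹ := by group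
          _ = w₁ * d * w₁⁻¹ := by rw [hvd]
          _ = d := hdcom w₁ hw₁
      have e3 := ih _ (hmeas A ((w₁ * v) • S) X hDX (le_inf inf_le_left (by
        rw [hA₁]
        exact hXw₁))) a (w₁ * v) rfl (by
        rw [e2]
        exact hd)
      rw [← e3, e2]

/-- The statement in the Sylow form. -/
theorem ci_isolated (hCI : ∀ S T : Sylow 2 G, S ≠ T → ∃ U : Sylow 2 G,
      (S : Subgroup G) ⊓ (T : Subgroup G) ≤ (Subgroup.center ↥(U : Subgroup G)).map (U : Subgroup G).subtype)
    (S : Sylow 2 G) {c : G} (hcS : c ∈ (S : Subgroup G))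
    (hfix : ∀ h : G, h ∈ Subgroup.normalizer ((S : Subgroup G) : Set G) → h * c * h⁻¹ = c) (g : G)
    (hg : g * c * g⁻¹ ∈ (S : Subgroup G)) : g * c * g⁻¹ = c := by
  have h1 := ci_step hCI S hcS hfix _ 1 g rfl (by
    rw [one_smul]
    exact hg)
  simpa using h1

/-- Involutions of cyclic characteristic subgroups are fixed by the normalizer. -/
theorem char_cyclic_fix (S : Subgroup G) (C : Subgroup S) (hCc : IsCyclic C) (hCh : C.Characteristic)
    (c : S) (hc : c ∈ C) (hc2 : orderOf c = 2) (h : G) (hh : h ∈ Subgroup.normalizer (S : Set G)) :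
    h * (c : G) * h⁻¹ = c := by
  classical
  set φ : MulAut S := S.normalizerMonoidHom ⟨h, hh⟩ with hφ
  have hφv : ((φ c : S) : G) = h * (c : G) * h⁻¹ := rfl
  have h1 : φ c ∈ C := by
    have h2 : c ∈ C.comap φ.toMonoidHom := by
      rw [hCh.fixed]
      exact hc
    exact h2
  obtain ⟨γ, hγ⟩ := hCc.exists_generator
  have h3 : orderOf (φ c) = 2 := by
    rw [MulEquiv.orderOf_eq]
    exact hc2
  have h4 : orderOf (⟨c, hc⟩ : C) = 2 := by
    rw [Subgroup.orderOf_mk]
    exact hc2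
  have h5 : orderOf (⟨φ c, h1⟩ : C) = 2 := by
    rw [Subgroup.orderOf_mk]
    exact h3
  have h6 := mem_zpowers_of_same_order (h := γ) (u := (⟨c, hc⟩ : C)) (v := (⟨φ c, h1⟩ : C)) (hγ _) (hγ _) (by rw [h4, h5])
  have h7 := eq_of_mem_zpowers_two h4 h5 h6
  have h8 : φ c = c := congrArg Subtype.val h7
  rw [← hφv, h8]

end CI

end CfsgLib.ZS
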