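import Cfsg.Agent.Lib.ZStar.Quat
import Cfsg.Agent.Lib.Trans.Basic

/-! # Sylow 2-subgroups `Q × R` with `Q` generalized quaternion: an isolated involution -/

set_option autoImplicit false
set_option linter.unusedSectionVars false
set_option linter.unusedVariables false

namespace CfsgLib.ZS

open Cfsg
open scoped IsMulCommutative

universe u

section Abstract

variable {G : Type u} [Group G] [Finite G] (S : Sylow 2 G) (Q R : Subgroup G)
  (hQS : Q ≤ (S : Subgroup G)) (hRS : R ≤ (S : Subgroup G))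
  (hc : ∀ a ∈ Q, ∀ b ∈ R, a * b = b * a) (hdisj : Q ⊓ R = ⊥) (hsup : Q ⊔ R = (S : Subgroup G))
  (x₀ i j k : G) (hx₀Q : x₀ ∈ Q) (hx₀ : x₀ * x₀ = 1) (hx₀1 : x₀ ≠ 1)
  (hQ1 : ∀ q ∈ Q, q * q = 1 → q = 1 ∨ q = x₀) (hQc : ∀ q ∈ Q, q * x₀ = x₀ * q)
  (hiQ : i ∈ Q) (hjQ : j ∈ Q) (hkQ : k ∈ Q) (hi : i * i = x₀) (hj : j * j = x₀) (hk : k * k = x₀)
  (hij : i ≠ j) (hik : i ≠ k) (hjk : j ≠ k)
  (hR : ∀ r ∈ R, orderOf r = 2 → ∀ s ∈ R, r * s = s * r)

include hc hsup in
theorem dp_decomp {s : G} (hs : s ∈ (S : Subgroup G)) : ∃ q ∈ Q, ∃ r ∈ R, s = q * r := by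
  let U : Subgroup G :=
    { carrier := {s | ∃ q ∈ Q, ∃ r ∈ R, s = q * r}
      mul_mem' := by
        rintro _ _ ⟨q₁, h₁, r₁, h₁', rfl⟩ ⟨q₂, h₂, r₂, h₂', rfl⟩
        refine ⟨q₁ * q₂, Q.mul_mem h₁ h₂, r₁ * r₂, R.mul_mem h₁' h₂', ?_⟩
        have := hc q₂ h₂ r₁ h₁'
        calc q₁ * r₁ * (q₂ * r₂) = q₁ * (r₁ * q₂) * r₂ := by group
          _ = q₁ * (q₂ * r₁) * r₂ := by rw [this]
          _ = q₁ * q₂ * (r₁ * r₂) := by group
      one_mem' := ⟨1, Q.one_mem, 1, R.one_mem, by simp⟩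
      inv_mem' := by
        rintro _ ⟨q, h, r, h', rfl⟩
        refine ⟨q⁻¹, Q.inv_mem h, r⁻¹, R.inv_mem h', ?_⟩
        have := hc q⁻¹ (Q.inv_mem h) r⁻¹ (R.inv_mem h')
        rw [mul_inv_rev, this] }
  have hle : Q ⊔ R ≤ U := sup_le (fun q hq => ⟨q, hq, 1, R.one_mem, by simp⟩)
    (fun r hr => ⟨1, Q.one_mem, r, hr, by simp⟩)
  rw [hsup] at hle
  exact hle hs

include hdisj in
theorem dp_inter {t : G} (h₁ : t ∈ Q) (h₂ : t ∈ R) : t = 1 := by
  have : t ∈ Q ⊓ R := ⟨h₁, h₂⟩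
  rw [hdisj] at this
  exact this

include hc in
theorem dp_sq {q r : G} (hq : q ∈ Q) (hr : r ∈ R) : (q * r) * (q * r) = (q * q) * (r * r) := by
  have := hc q hq r hr
  calc q * r * (q * r) = q * (r * q) * r := by group
    _ = q * (q * r) * r := by rw [this]
    _ = q * q * (r * r) := by group

/-- Involutions of `S`: both components have square one. -/
theorem dp_sq_one (hc : ∀ a ∈ Q, ∀ b ∈ R, a * b = b * a) (hdisj : Q ⊓ R = ⊥) {q r : G} (hq : q ∈ Q) (hr : r ∈ R)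
    (hqr : (q * r) * (q * r) = 1) : q * q = 1 ∧ r * r = 1 := by
  rw [dp_sq Q R hc hq hr] at hqr
  have h1 : q * q = (r * r)⁻¹ := eq_inv_of_mul_eq_one_left hqr
  have h2 : q * q = 1 := dp_inter Q R hdisj (Q.mul_mem hq hq) (by
    rw [h1]; exact R.inv_mem (R.mul_mem hr hr))
  rw [h2, one_mul] at hqr
  exact ⟨h2, hqr⟩

/-- Elements of `S` of square one are central in `S`. -/
theorem dp_central (hsup : Q ⊔ R = (S : Subgroup G)) (hc : ∀ a ∈ Q, ∀ b ∈ R, a * b = b * a) (hdisj : Q ⊓ R = ⊥)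
    (hx₀Q : x₀ ∈ Q) (hQ1 : ∀ q ∈ Q, q * q = 1 → q = 1 ∨ q = x₀) (hQc : ∀ q ∈ Q, q * x₀ = x₀ * q)
    (hR : ∀ r ∈ R, orderOf r = 2 → ∀ s ∈ R, r * s = s * r)
    {t s : G} (ht : t ∈ (S : Subgroup G)) (htt : t * t = 1) (hs : s ∈ (S : Subgroup G)) :
    s * t = t * s := by
  obtain ⟨q, hq, r, hr, rfl⟩ := dp_decomp S Q R hc hsup ht
  obtain ⟨q', hq', r', hr', rfl⟩ := dp_decomp S Q R hc hsup hs
  obtain ⟨h1, h2⟩ := dp_sq_one Q R hc hdisj hq hr htt
  have hqq : q' * q = q * q' := by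
    rcases hQ1 q hq h1 with rfl | rfl
    · simp
    · exact hQc q' hq'
  have hrr : r' * r = r * r' := by
    by_cases hr1 : r = 1
    · subst hr1; simp
    · have hro : orderOf r = 2 := orderOf_eq_prime (by rw [pow_two]; exact h2) hr1
      exact (hR r hr hro r' hr').symm
  have a1 := hc q' hq' r hr
  have a2 := hc q hq r' hr'
  calc q' * r' * (q * r) = q' * (r' * q) * r := by group
    _ = q' * (q * r') * r := by rw [a2]
    _ = (q' * q) * (r' * r) := by group
    _ = (q * q') * (r * r') := by rw [hqq, hrr]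
    _ = q * (q' * r) * r' := by group
    _ = q * (r * q') * r' := by rw [a1]
    _ = q * r * (q' * r') := by group

/-- The number of square roots in `S`. -/
noncomputable def rootCount (S : Subgroup G) (y : G) : ℕ := Set.ncard {s : G | s ∈ S ∧ s * s = y}

theorem rootCount_conj {S' : Subgroup G} {n : G} (hn : n ∈ Subgroup.normalizer (S' : Set G)) (y : G) :
    rootCount S' (n * y * n⁻¹) = rootCount S' y := by
  unfold rootCount
  have h : {s : G | s ∈ S' ∧ s * s = n * y * n⁻¹} = (fun s => n * s * n⁻¹) '' {s : G | s ∈ S' ∧ s * s = y} := by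
    ext s
    constructor
    · rintro ⟨h1, h2⟩
      refine ⟨n⁻¹ * s * n, ⟨?_, ?_⟩, by group⟩
      · have := (Subgroup.mem_normalizer_iff.1 (Subgroup.inv_mem _ hn) s).1 h1
        simpa using this
      · have : n⁻¹ * s * n * (n⁻¹ * s * n) = n⁻¹ * (s * s) * n := by group
        rw [this, h2]; group
    · rintro ⟨u, ⟨h1, h2⟩, rfl⟩
      refine ⟨(Subgroup.mem_normalizer_iff.1 hn u).1 h1, ?_⟩
      have : n * u * n⁻¹ * (n * u * n⁻¹) = n * (u * u) * n⁻¹ := by group
      simp only [this, h2]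
  rw [h, Set.ncard_image_of_injective]
  intro a b hab
  simpa using hab

/-- Few square roots of an element of `R`. -/
theorem rootCount_le (hsup : Q ⊔ R = (S : Subgroup G)) (hRS : R ≤ (S : Subgroup G))
    (hc : ∀ a ∈ Q, ∀ b ∈ R, a * b = b * a) (hdisj : Q ⊓ R = ⊥)
    (hx₀1 : x₀ ≠ 1) (hQ1 : ∀ q ∈ Q, q * q = 1 → q = 1 ∨ q = x₀) {r₀ : G} (hr₀ : r₀ ∈ R) :
    rootCount (S : Subgroup G) r₀ ≤ 2 * Set.ncard {u : G | u ∈ R ∧ u * u = r₀} := by
  unfold rootCount
  set T := {u : G | u ∈ R ∧ u * u = r₀} with hT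
  have hsub : {s : G | s ∈ (S : Subgroup G) ∧ s * s = r₀} ⊆ (fun p : G × G => p.1 * p.2) '' (({1, x₀} : Set G) ×ˢ T) := by
    rintro s ⟨hs, hss⟩
    obtain ⟨q, hq, r, hr, rfl⟩ := dp_decomp S Q R hc hsup hs
    rw [dp_sq Q R hc hq hr] at hss
    have h1 : q * q = r₀ * (r * r)⁻¹ := by rw [← hss]; group
    have h2 : q * q = 1 := dp_inter Q R hdisj (Q.mul_mem hq hq) (by
      rw [h1]; exact R.mul_mem hr₀ (R.inv_mem (R.mul_mem hr hr)))
    rw [h2, one_mul] at hss
    refine ⟨(q, r), ⟨?_, hr, hss⟩, rfl⟩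
    rcases hQ1 q hq h2 with rfl | rfl
    · exact Or.inl rfl
    · exact Or.inr rfl
  calc Set.ncard {s : G | s ∈ (S : Subgroup G) ∧ s * s = r₀}
      ≤ Set.ncard ((fun p : G × G => p.1 * p.2) '' (({1, x₀} : Set G) ×ˢ T)) :=
        Set.ncard_le_ncard hsub (Set.toFinite _)
    _ ≤ Set.ncard (({1, x₀} : Set G) ×ˢ T) := Set.ncard_image_le (Set.toFinite _)
    _ = 2 * T.ncard := by
        rw [Set.ncard_prod, Set.ncard_pair hx₀1.symm]

/-- Many square roots of `x₀ r`. -/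
theorem rootCount_ge (hQS : Q ≤ (S : Subgroup G)) (hRS : R ≤ (S : Subgroup G))
    (hc : ∀ a ∈ Q, ∀ b ∈ R, a * b = b * a) (hdisj : Q ⊓ R = ⊥)
    (hiQ : i ∈ Q) (hjQ : j ∈ Q) (hkQ : k ∈ Q) (hi : i * i = x₀) (hj : j * j = x₀) (hk : k * k = x₀)
    (hij : i ≠ j) (hik : i ≠ k) (hjk : j ≠ k) (r₀ : G) :
    3 * Set.ncard {u : G | u ∈ R ∧ u * u = r₀} ≤ rootCount (S : Subgroup G) (x₀ * r₀) := by
  unfold rootCount
  set T := {u : G | u ∈ R ∧ u * u = r₀} with hT
  have hE : ∀ e ∈ ({i, j, k} : Set G), e ∈ Q ∧ e * e = x₀ := by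
    rintro e (rfl | rfl | rfl)
    · exact ⟨hiQ, hi⟩
    · exact ⟨hjQ, hj⟩
    · exact ⟨hkQ, hk⟩
  have hsub : (fun p : G × G => p.1 * p.2) '' (({i, j, k} : Set G) ×ˢ T) ⊆ {s : G | s ∈ (S : Subgroup G) ∧ s * s = x₀ * r₀} := by
    rintro _ ⟨⟨e, u⟩, ⟨he, hu⟩, rfl⟩
    obtain ⟨he1, he2⟩ := hE e he
    refine ⟨Subgroup.mul_mem _ (hQS he1) (hRS hu.1), ?_⟩
    change (e * u) * (e * u) = x₀ * r₀
    rw [dp_sq Q R hc he1 hu.1, he2, hu.2]
  have hinj : Set.InjOn (fun p : G × G => p.1 * p.2) (({i, j, k} : Set G) ×ˢ T) := by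
    rintro ⟨e, u⟩ ⟨he, hu⟩ ⟨e', u'⟩ ⟨he', hu'⟩ h
    have h0 : e * u = e' * u' := h
    have h1 : e'⁻¹ * e = u' * u⁻¹ := by
      calc e'⁻¹ * e = e'⁻¹ * (e * u) * u⁻¹ := by group
        _ = e'⁻¹ * (e' * u') * u⁻¹ := by rw [h0]
        _ = u' * u⁻¹ := by group
    have h2 : e'⁻¹ * e = 1 := dp_inter Q R hdisj (Q.mul_mem (Q.inv_mem (hE e' he').1) (hE e he).1) (by
      rw [h1]; exact R.mul_mem hu'.1 (R.inv_mem hu.1))
    have h3 : e = e' := by
      rw [inv_mul_eq_one] at h2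
      exact h2.symm
    subst h3
    have h4 : u = u' := mul_left_cancel h0
    rw [h4]
  calc 3 * T.ncard = Set.ncard (({i, j, k} : Set G) ×ˢ T) := by
        rw [Set.ncard_prod, Set.ncard_eq_three.2 ⟨i, j, k, hij, hik, hjk, rfl⟩]
    _ = Set.ncard ((fun p : G × G => p.1 * p.2) '' (({i, j, k} : Set G) ×ˢ T)) :=
        (Set.InjOn.ncard_image hinj).symm
    _ ≤ _ := Set.ncard_le_ncard hsub (Set.toFinite _)

/-- The centre of a subgroup, as a commutative group. -/
abbrev CenterOf (S' : Subgroup G) := ↥(Subgroup.center ↥S')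

theorem exists_invariant_involution (hQS : Q ≤ (S : Subgroup G)) (hRS : R ≤ (S : Subgroup G))
    (hc : ∀ a ∈ Q, ∀ b ∈ R, a * b = b * a) (hdisj : Q ⊓ R = ⊥) (hsup : Q ⊔ R = (S : Subgroup G))
    (hx₀Q : x₀ ∈ Q) (hx₀ : x₀ * x₀ = 1) (hx₀1 : x₀ ≠ 1)
    (hQ1 : ∀ q ∈ Q, q * q = 1 → q = 1 ∨ q = x₀) (hQc : ∀ q ∈ Q, q * x₀ = x₀ * q)
    (hiQ : i ∈ Q) (hjQ : j ∈ Q) (hkQ : k ∈ Q) (hi : i * i = x₀) (hj : j * j = x₀) (hk : k * k = x₀)
    (hij : i ≠ j) (hik : i ≠ k) (hjk : j ≠ k)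
    (hR : ∀ r ∈ R, orderOf r = 2 → ∀ s ∈ R, r * s = s * r) :
    ∃ z ∈ (S : Subgroup G), z * z = 1 ∧ z ≠ 1 ∧ ∀ n ∈ Subgroup.normalizer ((S : Subgroup G) : Set G), n * z * n⁻¹ = z := by
  classical
  set S' : Subgroup G := (S : Subgroup G) with hS'
  have hcentral : ∀ t ∈ S', t * t = 1 → ∀ s ∈ S', s * t = t * s := fun t ht htt s hs =>
    dp_central S Q R x₀ hsup hc hdisj hx₀Q hQ1 hQc hR ht htt hs
  obtain ⟨y₀, ⟨hy₀S, hy₀⟩, hmax⟩ := Set.exists_max_image {t : G | t ∈ S' ∧ t * t = 1} (rootCount S')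
    (Set.toFinite _) ⟨1, S'.one_mem, by simp⟩
  have hmax' : ∀ t ∈ S', t * t = 1 → rootCount S' t ≤ rootCount S' y₀ := fun t h1 h2 => hmax t ⟨h1, h2⟩
  have hone : 1 ≤ rootCount S' y₀ := by
    refine le_trans ?_ (hmax' 1 S'.one_mem (by simp))
    unfold rootCount
    exact Set.ncard_pos (Set.toFinite _) |>.2 ⟨1, S'.one_mem, by simp⟩
  have hnotR : ∀ y ∈ S', y * y = 1 → rootCount S' y = rootCount S' y₀ → x₀ * y ∈ R := by
    intro y hy hyy hcnt
    obtain ⟨q, hq, r, hr, rfl⟩ := dp_decomp S Q R hc hsup hy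
    obtain ⟨h1, h2⟩ := dp_sq_one Q R hc hdisj hq hr hyy
    rcases hQ1 q hq h1 with rfl | rfl
    · exfalso
      rw [one_mul] at hcnt hy hyy
      have a1 := rootCount_le S Q R x₀ hsup hRS hc hdisj hx₀1 hQ1 hr
      have a2 := rootCount_ge S Q R x₀ i j k hQS hRS hc hdisj hiQ hjQ hkQ hi hj hk hij hik hjk r
      have a3 : rootCount S' (x₀ * r) ≤ rootCount S' y₀ := by
        apply hmax' _ (S'.mul_mem (hQS hx₀Q) hy)
        rw [dp_sq Q R hc hx₀Q hr, hx₀, hyy, one_mul]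
      rw [hS'] at hcnt a3
      rw [hcnt] at a1
      have a4 := hone
      rw [hS'] at a4
      omega
    · rw [← mul_assoc, hx₀, one_mul]
      exact hr
  -- the abelian group
  let N : Subgroup G := Subgroup.normalizer (S' : Set G)
  let S₁ : Subgroup N := S'.subgroupOf N
  have hconjS : ∀ n : N, n * y₀ * (n : G)⁻¹ ∈ S' := fun n =>
    (Subgroup.mem_normalizer_iff.1 n.2 y₀).1 hy₀S
  have hconjsq : ∀ n : N, (n * y₀ * (n : G)⁻¹) * (n * y₀ * (n : G)⁻¹) = 1 := by
    intro n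
    have : ((n : G) * y₀ * (n : G)⁻¹) * ((n : G) * y₀ * (n : G)⁻¹) = (n : G) * (y₀ * y₀) * (n : G)⁻¹ := by group
    rw [this, hy₀]; group
  let F : N → CenterOf S' := fun n => ⟨⟨n * y₀ * (n : G)⁻¹, hconjS n⟩, by
    rw [Subgroup.mem_center_iff]
    rintro ⟨s, hs⟩
    apply Subtype.ext
    exact hcentral _ (hconjS n) (hconjsq n) s hs⟩
  have hFcoset : ∀ h₁ h₂ : N, (h₁ : N ⧸ S₁) = (h₂ : N ⧸ S₁) → F h₁ = F h₂ := by
    intro h₁ h₂ h
    have h3 : h₁⁻¹ * h₂ ∈ S₁ := QuotientGroup.eq.1 h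
    have h4 : ((h₁⁻¹ * h₂ : N) : G) ∈ S' := Subgroup.mem_subgroupOf.1 h3
    have h5 := hcentral y₀ hy₀S hy₀ _ h4
    apply Subtype.ext
    apply Subtype.ext
    change (h₁ : G) * y₀ * (h₁ : G)⁻¹ = (h₂ : G) * y₀ * (h₂ : G)⁻¹
    have h6 : ((h₁⁻¹ * h₂ : N) : G) = (h₁ : G)⁻¹ * h₂ := by simp
    rw [h6] at h5
    have h7 : (h₂ : G) * y₀ = h₁ * (y₀ * ((h₁ : G)⁻¹ * h₂)) := by
      rw [← h5]; group
    rw [h7]
    group
  haveI : Fintype (N ⧸ S₁) := Fintype.ofFinite _
  let f : N ⧸ S₁ → CenterOf S' := fun q => F q.out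
  have hfF : ∀ h : N, f (h : N ⧸ S₁) = F h := fun h => hFcoset _ _ (QuotientGroup.out_eq' _)
  set z : CenterOf S' := ∏ q, f q with hz
  -- values of `f`
  have hfval : ∀ q : N ⧸ S₁, x₀ * ((f q : S') : G) ∈ R ∧ ((f q : S') : G) * ((f q : S') : G) = 1 := by
    intro q
    have h1 : ((f q : S') : G) = q.out * y₀ * ((q.out : N) : G)⁻¹ := rfl
    rw [h1]
    refine ⟨hnotR _ (hconjS _) (hconjsq _) (rootCount_conj q.out.2 y₀), hconjsq _⟩
  -- parity
  have hpar : ∀ s : Finset (N ⧸ S₁), (Even s.card → (((∏ q ∈ s, f q : CenterOf S') : S') : G) ∈ R) ∧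
      (Odd s.card → x₀ * (((∏ q ∈ s, f q : CenterOf S') : S') : G) ∈ R) := by
    intro s
    induction s using Finset.induction_on with
    | empty =>
      constructor
      · intro _
        simp
      · intro h
        simp at h
    | insert a s ha ih =>
      rw [Finset.prod_insert ha, Finset.card_insert_of_notMem ha]
      have e1 : ((((f a * ∏ q ∈ s, f q : CenterOf S')) : S') : G) = ((f a : S') : G) * (((∏ q ∈ s, f q : CenterOf S') : S') : G) := rfl
      rw [e1]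
      obtain ⟨h1, -⟩ := hfval a
      generalize (((∏ q ∈ s, f q : CenterOf S') : S') : G) = v at *
      generalize ((f a : S') : G) = w at *
      constructor
      · intro he
        have ho : Odd s.card := by
          rw [Nat.even_add_one] at he
          exact Nat.not_even_iff_odd.1 he
        have h2 := ih.2 ho
        have h3 : w * v = (x₀ * w) * (x₀ * v) := by
          have h4 := hc x₀ hx₀Q _ h1
          calc w * v = (x₀ * x₀) * w * v := by rw [hx₀, one_mul]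
            _ = (x₀ * (x₀ * w)) * v := by group
            _ = ((x₀ * w) * x₀) * v := by rw [h4]
            _ = (x₀ * w) * (x₀ * v) := by group
        rw [h3]
        exact R.mul_mem h1 h2
      · intro ho
        have he : Even s.card := by
          rw [Nat.odd_add_one] at ho
          exact Nat.not_odd_iff_even.1 ho
        have h2 := ih.1 he
        have h3 : x₀ * (w * v) = (x₀ * w) * v := by group
        rw [h3]
        exact R.mul_mem h1 h2
  have hcard : Odd (Finset.univ : Finset (N ⧸ S₁)).card := by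
    rw [Finset.card_univ, Fintype.card_eq_nat_card]
    have h1 : Nat.card (N ⧸ S₁) = S'.relIndex N := rfl
    rw [h1, ← Nat.not_even_iff_odd, even_iff_two_dvd]
    intro h2
    apply S.not_dvd_index
    rw [← Subgroup.relIndex_mul_index (Subgroup.le_normalizer : S' ≤ N)]
    exact Dvd.dvd.mul_right h2 _
  refine ⟨((z : S') : G), (z : S').2, ?_, ?_, ?_⟩
  · -- `z` has square one
    have h1 : z ^ 2 = 1 := by
      rw [hz, ← Finset.prod_pow]
      apply Finset.prod_eq_one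
      intro q _
      apply Subtype.ext
      apply Subtype.ext
      rw [pow_two]
      exact (hfval q).2
    have h2 := congrArg (fun a : CenterOf S' => ((a : S') : G)) h1
    rw [pow_two] at h2
    exact h2
  · intro h1
    have h2 := (hpar Finset.univ).2 hcard
    rw [← hz, h1, mul_one] at h2
    exact hx₀1 (dp_inter Q R hdisj hx₀Q h2)
  · intro n hn
    let n' : N := ⟨n, hn⟩
    let Φ : CenterOf S' →* CenterOf S' := MonoidHom.mk' (fun a => ⟨⟨n * ((a : S') : G) * n⁻¹, (Subgroup.mem_normalizer_iff.1 hn _).1 (a : S').2⟩, by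
        rw [Subgroup.mem_center_iff]
        rintro ⟨s, hs⟩
        apply Subtype.ext
        have h1 : n⁻¹ * s * n ∈ S' := by
          have := (Subgroup.mem_normalizer_iff.1 (Subgroup.inv_mem _ hn) s).1 hs
          simpa using this
        have h2 := Subgroup.mem_center_iff.1 a.2 ⟨_, h1⟩
        have h3 : n⁻¹ * s * n * ((a : S') : G) = ((a : S') : G) * (n⁻¹ * s * n) := congrArg Subtype.val h2
        change s * (n * ((a : S') : G) * n⁻¹) = n * ((a : S') : G) * n⁻¹ * s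
        calc s * (n * ((a : S') : G) * n⁻¹) = n * (n⁻¹ * s * n * ((a : S') : G)) * n⁻¹ := by group
          _ = n * (((a : S') : G) * (n⁻¹ * s * n)) * n⁻¹ := by rw [h3]
          _ = n * ((a : S') : G) * n⁻¹ * s := by group⟩) (by
        intro a b
        apply Subtype.ext
        apply Subtype.ext
        change n * (((a : S') : G) * ((b : S') : G)) * n⁻¹ = (n * ((a : S') : G) * n⁻¹) * (n * ((b : S') : G) * n⁻¹)
        group)
    have hΦf : ∀ q : N ⧸ S₁, Φ (f q) = f (n' • q) := by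
      intro q
      have h1 : n' • q = ((n' * q.out : N) : N ⧸ S₁) := by
        conv_lhs => rw [← QuotientGroup.out_eq' q]
        rfl
      rw [h1, hfF]
      apply Subtype.ext
      apply Subtype.ext
      change n * ((q.out : N) * y₀ * ((q.out : N) : G)⁻¹) * n⁻¹ = ((n' * q.out : N) : G) * y₀ * ((n' * q.out : N) : G)⁻¹
      simp only [Subgroup.coe_mul]
      change n * ((q.out : N) * y₀ * ((q.out : N) : G)⁻¹) * n⁻¹ = (n * (q.out : N)) * y₀ * (n * ((q.out : N) : G))⁻¹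
      group
    have hΦz : Φ z = z := by
      rw [hz, map_prod]
      calc ∏ q, Φ (f q) = ∏ q, f (n' • q) := Finset.prod_congr rfl (fun q _ => hΦf q)
        _ = ∏ q, f q := Equiv.prod_comp (MulAction.toPerm n') f
    have := congrArg (fun a : CenterOf S' => ((a : S') : G)) hΦz
    exact this

end Abstract

section Main

open QuaternionGroup

variable {G : Type u} [Group G] [Finite G]

/-- S3269: a finite group with Sylow `2`-subgroup `Q × R`, `Q` generalized quaternion, every involution of `R`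
central in `R`, is not simple. -/
theorem not_simple_of_quaternion_prod (S : Sylow 2 G) (Q R : Subgroup G)
    (hQS : Q ≤ (S : Subgroup G)) (hRS : R ≤ (S : Subgroup G))
    (hc : ∀ a ∈ Q, ∀ b ∈ R, a * b = b * a) (hdisj : Q ⊓ R = ⊥) (hsup : Q ⊔ R = (S : Subgroup G))
    (n : ℕ) (hn : 1 ≤ n) (eQ : ↥Q ≃* QuaternionGroup (2 ^ n))
    (hR : ∀ r ∈ R, orderOf r = 2 → ∀ s ∈ R, r * s = s * r) : ¬ IsSimpleGroup G := by
  classical
  intro hsimple
  set m : ℕ := 2 ^ n with hm
  haveI hm0 : NeZero m := ⟨by rw [hm]; positivity⟩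
  obtain ⟨M, hM⟩ : ∃ M : ℕ, m = 2 * M := ⟨2 ^ (n - 1), by
    rw [hm, ← pow_succ']; congr 1; omega⟩
  have hM0 : 0 < M := by
    have : 0 < m := Nat.pos_of_ne_zero (NeZero.ne m)
    omega
  haveI hone : Fact (1 < 2 * m) := ⟨by omega⟩
  have h01 : (0 : ZMod (2 * m)) ≠ 1 := by
    haveI : Nontrivial (ZMod (2 * m)) := ZMod.nontrivial _
    exact zero_ne_one
  set x₀ : G := ((eQ.symm (a (m : ZMod (2 * m))) : Q) : G) with hx₀def
  set i : G := ((eQ.symm (xa 0) : Q) : G) with hidef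
  set j : G := ((eQ.symm (xa 1) : Q) : G) with hjdef
  set k : G := ((eQ.symm (a (M : ZMod (2 * m))) : Q) : G) with hkdef
  have hcoe : ∀ u v : QuaternionGroup m, ((eQ.symm u : Q) : G) * ((eQ.symm v : Q) : G) = ((eQ.symm (u * v) : Q) : G) := by
    intro u v
    rw [map_mul]; rfl
  have hcoeinj : ∀ u v : QuaternionGroup m, ((eQ.symm u : Q) : G) = ((eQ.symm v : Q) : G) → u = v := by
    intro u v h
    exact eQ.symm.injective (Subtype.ext h)
  have hx₀ : x₀ * x₀ = 1 := by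
    rw [hx₀def, hcoe, ← pow_two, qi_sq]; simp
  have hx₀1 : x₀ ≠ 1 := by
    intro h
    have h1 : eQ.symm (a (m : ZMod (2 * m))) = 1 := Subtype.ext h
    have h2 : (a (m : ZMod (2 * m)) : QuaternionGroup m) = 1 := by
      simpa using h1
    exact qi_ne h2
  have hQ1 : ∀ q ∈ Q, q * q = 1 → q = 1 ∨ q = x₀ := by
    intro q hq hqq
    by_cases hq1 : q = 1
    · exact Or.inl hq1
    · right
      have ht : orderOf (eQ ⟨q, hq⟩) = 2 := by
        rw [MulEquiv.orderOf_eq, Subgroup.orderOf_mk]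
        exact orderOf_eq_prime (by rw [pow_two]; exact hqq) hq1
      have h2 := qi_unique ht
      have h3 : (⟨q, hq⟩ : Q) = eQ.symm (a (m : ZMod (2 * m))) := by
        rw [← h2]; simp
      exact congrArg Subtype.val h3
  have hQc : ∀ q ∈ Q, q * x₀ = x₀ * q := by
    intro q hq
    have h1 : orderOf (eQ ⟨q, hq⟩ * a (m : ZMod (2 * m)) * (eQ ⟨q, hq⟩)⁻¹) = 2 := by
      rw [CfsgLib.Block.orderOf_conj', qi_order]
    have h2 := qi_unique h1
    have h3 : eQ ⟨q, hq⟩ * a (m : ZMod (2 * m)) = a (m : ZMod (2 * m)) * eQ ⟨q, hq⟩ := by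
      rw [mul_inv_eq_iff_eq_mul] at h2
      exact h2
    have h4 := congrArg eQ.symm h3
    rw [map_mul, map_mul, MulEquiv.symm_apply_apply] at h4
    exact congrArg Subtype.val h4
  have hsqxa : ∀ t : ZMod (2 * m), (xa t : QuaternionGroup m) * xa t = a (m : ZMod (2 * m)) := by
    intro t
    rw [xa_mul_xa]
    congr 1
    ring
  have hi : i * i = x₀ := by rw [hidef, hcoe, hsqxa]
  have hj : j * j = x₀ := by rw [hjdef, hcoe, hsqxa]
  have hk : k * k = x₀ := by
    rw [hkdef, hcoe, a_mul_a, hx₀def]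
    congr 3
    rw [hM]
    push_cast
    ring
  have hij : i ≠ j := by
    intro h
    have h1 := hcoeinj _ _ h
    exact h01 (xa.inj h1)
  have hik : i ≠ k := by
    intro h
    have h1 := hcoeinj _ _ h
    cases h1
  have hjk : j ≠ k := by
    intro h
    have h1 := hcoeinj _ _ h
    cases h1
  obtain ⟨z, hzS, hzz, hz1, hzN⟩ := exists_invariant_involution S Q R x₀ i j k hQS hRS hc hdisj hsup
    (eQ.symm _).2 hx₀ hx₀1 hQ1 hQc (eQ.symm _).2 (eQ.symm _).2 (eQ.symm _).2 hi hj hk hij hik hjk hR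
  have hzo : orderOf z = 2 := orderOf_eq_prime (by rw [pow_two]; exact hzz) hz1
  have hcentral : ∀ t ∈ (S : Subgroup G), t * t = 1 → ∀ s ∈ (S : Subgroup G), s * t = t * s := fun t ht htt s hs =>
    dp_central S Q R x₀ hsup hc hdisj (eQ.symm _).2 hQ1 hQc hR ht htt hs
  have hiso : IsIsolated z := by
    apply isolated_of_sylow_form (P := S) hzo
    intro g hg
    have hyy : (g * z * g⁻¹) * (g * z * g⁻¹) = 1 := by
      have : (g * z * g⁻¹) * (g * z * g⁻¹) = g * (z * z) * g⁻¹ := by group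
      rw [this, hzz]; group
    obtain ⟨n', hn', hn'z⟩ := CfsgLib.Trans.burnside_fusion S {z} {g * z * g⁻¹}
      (fun t ht => by
        have := hcentral _ hg hyy t ht
        simp only [Set.image_singleton]
        rw [this]; simp)
      (fun t ht => by
        have := hcentral _ hzS hzz t ht
        simp only [Set.image_singleton]
        rw [this]; simp)
      g (by simp)
    simp only [Set.image_singleton, Set.singleton_eq_singleton_iff] at hn'z
    rw [← hn'z]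
    exact hzN _ hn'
  have hstar := zstar hzo hiso
  haveI hOn : (pPrimeCore 2 G).Normal := CfsgLib.PLocal.pPrimeCore_normal' (p := 2) (G := G)
  rcases hsimple.eq_bot_or_eq_top_of_normal _ hOn with h | h
  · -- `z` is central
    have hcz : ∀ g : G, g * z = z * g := by
      intro g
      have h1 := hstar g
      rw [h, Subgroup.mem_bot, mul_inv_eq_one, mul_inv_eq_iff_eq_mul] at h1
      exact h1
    have hZ : Subgroup.center G = ⊤ := by
      rcases hsimple.eq_bot_or_eq_top_of_normal _ (Subgroup.instNormalCenter) with h2 | h2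
      · exfalso
        have : z ∈ Subgroup.center G := Subgroup.mem_center_iff.2 hcz
        rw [h2, Subgroup.mem_bot] at this
        exact hz1 this
      · exact h2
    have hcomm : ∀ u v : G, u * v = v * u := by
      intro u v
      have : v ∈ Subgroup.center G := by rw [hZ]; trivial
      exact Subgroup.mem_center_iff.1 this u
    -- quaternion groups are not commutative
    have h1 : (xa 0 : QuaternionGroup m) * a 1 = a 1 * xa 0 := by
      have h2 := hcomm (((eQ.symm (xa 0) : Q) : G)) (((eQ.symm (a 1) : Q) : G))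
      rw [hcoe, hcoe] at h2
      exact hcoeinj _ _ h2
    rw [xa_mul_a, a_mul_xa] at h1
    have h2 : (0 : ZMod (2 * m)) + 1 = 0 - 1 := xa.inj h1
    have h3 : (2 : ZMod (2 * m)) = 0 := by
      have : (2 : ZMod (2 * m)) = (0 + 1) - (0 - 1) := by ring
      rw [this, h2]; ring
    have h4 : ((2 : ℕ) : ZMod (2 * m)) = 0 := by exact_mod_cast h3
    rw [ZMod.natCast_eq_zero_iff] at h4
    have h5 := Nat.le_of_dvd (by norm_num) h4
    omega
  · -- `G` has odd order
    have h1 := CfsgLib.Solv.pPrimeCore_coprime (G := G) 2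
    rw [h, Subgroup.card_top] at h1
    have h2 : 2 ∣ Nat.card G := by
      rw [← hzo]
      exact orderOf_dvd_natCard z
    have h3 := Nat.Coprime.eq_one_of_dvd h1.symm h2
    omega

end Main

end CfsgLib.ZS
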