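import Mathlib
import Cfsg.Prelude.Def_Transfer

/-! # Thompson transfer for a central involution, with the conjugator in `N(P)` -/

set_option autoImplicit false
set_option linter.unusedSectionVars false
set_option linter.unusedVariables false
set_option linter.style.haveILetI false

namespace CfsgLib.ZS

open Subgroup MulAction

universe u

theorem z2_ne {x y : Multiplicative (ZMod 2)} : x ≠ 1 → y ≠ 1 → x = y := by
  revert x y; decide

theorem z2_sq (x : Multiplicative (ZMod 2)) : x * x = 1 := by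
  revert x; decide

variable {G : Type u} [Group G] [Finite G]

/-- If `ϕ : H → ℤ/2` does not kill the central involution `u` and no `N(H)`-conjugate of `u` is
killed by `ϕ`, then `G` has a normal subgroup of index 2 missing `u`. -/
theorem thompson_central (H : Subgroup G) (hHp : IsPGroup 2 H) (hodd : Odd H.index) (ϕ : H →* Multiplicative (ZMod 2)) (u : G)
    (huu : u * u = 1) (huP : u ∈ H) (huZ : ∀ p ∈ H, p * u = u * p)
    (hϕ : ϕ ⟨u, huP⟩ ≠ 1) :
    (∃ M : Subgroup G, M.Normal ∧ M.index = 2 ∧ u ∉ M) ∨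
      ∃ n ∈ normalizer (H : Set G), ∃ h : n⁻¹ * u * n ∈ H, ϕ ⟨n⁻¹ * u * n, h⟩ = 1 := by
  classical
  by_contra hcon
  push Not at hcon
  obtain ⟨h1, h2⟩ := hcon
  haveI : Fact (Nat.Prime 2) := ⟨Nat.prime_two⟩
  set ε := ϕ ⟨u, huP⟩ with hε
  -- the set `F₁`
  let F₁ : SubMulAction H (G ⧸ H) :=
    { carrier := {c | ∃ g : G, (g : G ⧸ H) = c ∧ ∃ hg : g⁻¹ * u * g ∈ H, ϕ ⟨g⁻¹ * u * g, hg⟩ ≠ 1}
      smul_mem' := by
        rintro p c ⟨g, rfl, hg, hgϕ⟩
        refine ⟨(p : G) * g, ?_, ?_⟩
        · rfl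
        · have h3 : ((p : G) * g)⁻¹ * u * ((p : G) * g) = g⁻¹ * u * g := by
            have := huZ p p.2
            calc ((p : G) * g)⁻¹ * u * ((p : G) * g) = g⁻¹ * ((p : G)⁻¹ * (u * (p : G))) * g := by group
              _ = g⁻¹ * ((p : G)⁻¹ * ((p : G) * u)) * g := by rw [this]
              _ = g⁻¹ * u * g := by group
          simp only [h3]
          exact ⟨hg, hgϕ⟩ }
  have hF₁mem : ∀ c, c ∈ F₁ ↔ ∃ g : G, (g : G ⧸ H) = c ∧ ∃ hg : g⁻¹ * u * g ∈ H, ϕ ⟨g⁻¹ * u * g, hg⟩ ≠ 1 :=
    fun c => Iff.rfl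
  -- fixed points
  have hfix : ∀ c : G ⧸ H, c ∈ fixedPoints H (G ⧸ H) → c ∈ F₁ := by
    intro c hc
    obtain ⟨g, rfl⟩ := QuotientGroup.mk_surjective c
    have hle : ∀ p ∈ H, g⁻¹ * p * g ∈ H := by
      intro p hp
      have := hc ⟨p, hp⟩
      have h3 : ((p * g : G) : G ⧸ H) = (g : G ⧸ H) := this
      rw [QuotientGroup.eq] at h3
      have h4 : (p * g)⁻¹ * g = g⁻¹ * p⁻¹ * g := by group
      rw [h4] at h3
      have h5 := H.inv_mem h3
      have h6 : (g⁻¹ * p⁻¹ * g)⁻¹ = g⁻¹ * p * g := by group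
      rwa [h6] at h5
    have hgn : g ∈ normalizer (H : Set G) := by
      have h5 : H.map (MulAut.conj g⁻¹).toMonoidHom ≤ H := by
        rintro x ⟨p, hp, rfl⟩
        have : (MulAut.conj g⁻¹).toMonoidHom p = g⁻¹ * p * g := by
          simp
        rw [this]
        exact hle p hp
      have hcard : Nat.card (H.map (MulAut.conj g⁻¹).toMonoidHom) = Nat.card H :=
        Subgroup.card_map_of_injective (MulAut.conj g⁻¹).injective
      have h6 : H.map (MulAut.conj g⁻¹).toMonoidHom = H :=
        Subgroup.eq_of_le_of_card_ge h5 (le_of_eq hcard.symm)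
      rw [Subgroup.mem_normalizer_iff]
      intro x
      constructor
      · intro hx
        have h7 : g⁻¹ * (g * x * g⁻¹) * g ∈ H := by simpa using hle _ (by
          have : g * x * g⁻¹ ∈ H := by
            have h8 : x ∈ H.map (MulAut.conj g⁻¹).toMonoidHom := by rw [h6]; exact hx
            obtain ⟨p, hp, hpx⟩ := h8
            have : (MulAut.conj g⁻¹).toMonoidHom p = g⁻¹ * p * g := by
              simp
            rw [this] at hpx
            have h9 : g * x * g⁻¹ = p := by rw [← hpx]; group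
            rw [h9]; exact hp
          exact this)
        have h8 : x ∈ H.map (MulAut.conj g⁻¹).toMonoidHom := by rw [h6]; exact hx
        obtain ⟨p, hp, hpx⟩ := h8
        have : (MulAut.conj g⁻¹).toMonoidHom p = g⁻¹ * p * g := by
          simp
        rw [this] at hpx
        have h9 : g * x * g⁻¹ = p := by rw [← hpx]; group
        rw [h9]; exact hp
      · intro hx
        have := hle _ hx
        have h9 : g⁻¹ * (g * x * g⁻¹) * g = x := by group
        rwa [h9] at this
    have hm : g⁻¹ * u * g ∈ H := hle u huP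
    exact ⟨g, rfl, hm, h2 g hgn hm⟩
  -- parity
  have hcardF : Odd (Nat.card F₁) := by
    have m1 := hHp.card_modEq_card_fixedPoints (G ⧸ H)
    have m2 := hHp.card_modEq_card_fixedPoints F₁
    have hbij : Nat.card (fixedPoints H F₁) = Nat.card (fixedPoints H (G ⧸ H)) := by
      apply Nat.card_congr
      refine ⟨fun x => ⟨x.1.1, ?_⟩, fun x => ⟨⟨x.1, hfix x.1 x.2⟩, ?_⟩, ?_, ?_⟩
      · intro p
        have := x.2 p
        exact congrArg Subtype.val this
      · intro p
        apply Subtype.ext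
        exact x.2 p
      · intro x; rfl
      · intro x; rfl
    have hodd' : Odd (Nat.card (G ⧸ H)) := hodd
    rw [hbij] at m2
    have h3 : Nat.card F₁ ≡ Nat.card (G ⧸ H) [MOD 2] := m2.trans m1.symm
    rw [Nat.odd_iff] at hodd' ⊢
    rw [h3]; exact hodd'
  -- the transfer
  have hrep : ∀ c ∈ F₁, ∀ o : G, (o : G ⧸ H) = c → ∃ ho : o⁻¹ * u * o ∈ H, ϕ ⟨o⁻¹ * u * o, ho⟩ ≠ 1 := by
    rintro c ⟨g, rfl, hg, hgϕ⟩ o ho
    have hpm : g⁻¹ * o ∈ H := by
      rw [← QuotientGroup.eq]; exact ho.symm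
    have hoe : o⁻¹ * u * o = (g⁻¹ * o)⁻¹ * (g⁻¹ * u * g) * (g⁻¹ * o) := by group
    have hom : o⁻¹ * u * o ∈ H := by
      rw [hoe]; exact H.mul_mem (H.mul_mem (H.inv_mem hpm) hg) hpm
    refine ⟨hom, ?_⟩
    have h5 : (⟨o⁻¹ * u * o, hom⟩ : H) = (⟨g⁻¹ * o, hpm⟩ : H)⁻¹ * ⟨g⁻¹ * u * g, hg⟩ * ⟨g⁻¹ * o, hpm⟩ :=
      Subtype.ext hoe
    rw [h5, map_mul, map_mul, mul_comm, ← mul_assoc, map_inv, mul_inv_cancel, one_mul]
    exact hgϕ
  have hper : ∀ c ∈ F₁, u • c = c := by
    rintro c ⟨g, rfl, hg, hgϕ⟩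
    show ((u * g : G) : G ⧸ H) = (g : G ⧸ H)
    rw [QuotientGroup.eq]
    have h4 : (u * g)⁻¹ * g = (g⁻¹ * u * g)⁻¹ := by
      have hu : u⁻¹ = u := inv_eq_of_mul_eq_one_left huu
      calc (u * g)⁻¹ * g = g⁻¹ * u⁻¹ * g := by group
        _ = g⁻¹ * u * g := by rw [hu]
        _ = (g⁻¹ * u⁻¹ * g)⁻¹ := by group
        _ = (g⁻¹ * u * g)⁻¹ := by rw [hu]
    rw [h4]
    exact H.inv_mem hg
  have hV : MonoidHom.transfer ϕ u = ε ^ Nat.card F₁ := by
    have : FiniteIndex H := inferInstance
    let := H.fintypeQuotientOfFiniteIndex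
    let : Fintype (Quotient (MulAction.orbitRel (zpowers u) (G ⧸ H))) := Fintype.ofFinite _
    rw [MonoidHom.transfer_eq_prod_quotient_orbitRel_zpowers_quot]
    have hfac : ∀ q : Quotient (MulAction.orbitRel (zpowers u) (G ⧸ H)),
        ϕ ⟨q.out.out⁻¹ * u ^ Function.minimalPeriod (u • ·) q.out * q.out.out,
          QuotientGroup.out_conj_pow_minimalPeriod_mem H u q.out⟩ = if q.out ∈ F₁ then ε else 1 := by
      intro q
      by_cases hc : q.out ∈ F₁
      · rw [if_pos hc]
        obtain ⟨ho, hv⟩ := hrep _ hc q.out.out (QuotientGroup.out_eq' _)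
        have hp1 : Function.minimalPeriod (u • ·) q.out = 1 := by
          rw [Function.minimalPeriod_eq_one_iff_isFixedPt]
          exact hper _ hc
        have h5 : (⟨q.out.out⁻¹ * u ^ Function.minimalPeriod (u • ·) q.out * q.out.out,
          QuotientGroup.out_conj_pow_minimalPeriod_mem H u q.out⟩ : H) = ⟨q.out.out⁻¹ * u * q.out.out, ho⟩ :=
          Subtype.ext (by simp only [hp1, pow_one])
        rw [h5]
        exact z2_ne hv hϕ
      · rw [if_neg hc]
        rcases Nat.even_or_odd (Function.minimalPeriod (u • ·) q.out) with he | ho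
        · have h6 : u ^ Function.minimalPeriod (u • ·) q.out = 1 := by
            obtain ⟨m, hm⟩ := he
            rw [hm, ← two_mul, pow_mul, pow_two, huu, one_pow]
          have h5 : (⟨q.out.out⁻¹ * u ^ Function.minimalPeriod (u • ·) q.out * q.out.out,
            QuotientGroup.out_conj_pow_minimalPeriod_mem H u q.out⟩ : H) = 1 :=
            Subtype.ext (by simp only [h6]; simp)
          rw [h5, map_one]
        · have h6 : u ^ Function.minimalPeriod (u • ·) q.out = u := by
            obtain ⟨m, hm⟩ := ho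
            rw [hm, pow_succ, pow_mul, pow_two, huu, one_pow, one_mul]
          have hm := QuotientGroup.out_conj_pow_minimalPeriod_mem H u q.out
          rw [h6] at hm
          have h5 : (⟨q.out.out⁻¹ * u ^ Function.minimalPeriod (u • ·) q.out * q.out.out,
            QuotientGroup.out_conj_pow_minimalPeriod_mem H u q.out⟩ : H) = ⟨q.out.out⁻¹ * u * q.out.out, hm⟩ :=
            Subtype.ext (by simp only [h6])
          rw [h5]
          by_contra hne
          exact hc ⟨q.out.out, QuotientGroup.out_eq' _, hm, hne⟩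
    simp only [hfac]
    rw [Finset.prod_ite, Finset.prod_const, Finset.prod_const_one, mul_one]
    congr 1
    rw [← Fintype.card_subtype, ← Nat.card_eq_fintype_card]
    apply Nat.card_congr
    refine Equiv.ofBijective (fun q => ⟨q.1.out, q.2⟩) ⟨?_, ?_⟩
    · intro q q' h
      apply Subtype.ext
      exact Quotient.out_injective (congrArg Subtype.val h)
    · rintro ⟨c, hc⟩
      have h7 : (Quotient.mk _ c : Quotient (MulAction.orbitRel (zpowers u) (G ⧸ H))).out = c := by
        have h8 := Quotient.mk_out (s := MulAction.orbitRel (zpowers u) (G ⧸ H)) c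
        rw [MulAction.orbitRel_apply] at h8
        obtain ⟨z, hz⟩ := h8
        have h9 : (zpowers u) ≤ stabilizer G c := by
          rw [zpowers_le]
          exact hper c hc
        have h10 : (z : G) • c = c := h9 z.2
        rw [← hz]
        exact h10
      exact ⟨⟨Quotient.mk _ c, by show (Quotient.mk _ c : Quotient (MulAction.orbitRel (zpowers u) (G ⧸ H))).out ∈ F₁; rw [h7]; exact hc⟩, Subtype.ext h7⟩
  have hV1 : MonoidHom.transfer ϕ u = ε := by
    obtain ⟨k, hk⟩ := hcardF
    rw [hV, hk, pow_succ, pow_mul, pow_two, z2_sq, one_pow, one_mul]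
  have hsurj : Function.Surjective (MonoidHom.transfer ϕ) := by
    intro x
    by_cases hx : x = 1
    · exact ⟨1, by rw [hx, map_one]⟩
    · exact ⟨u, by rw [hV1]; exact z2_ne hϕ hx⟩
  have hker : (MonoidHom.transfer ϕ).ker.index = 2 := by
    rw [Subgroup.index_ker, MonoidHom.range_eq_top.2 hsurj]
    simp
  have h3 := h1 _ (MonoidHom.normal_ker _) hker
  rw [MonoidHom.mem_ker, hV1] at h3
  exact hϕ h3

end CfsgLib.ZS
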